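import Cfsg.Agent.H23.D4Spec.Gens
import Cfsg.Agent.S1067
import Cfsg.Agent.S1071

/-!
# Named elements, injectivity of the natural representation
-/

set_option autoImplicit false
set_option maxRecDepth 100000

namespace Cfsg.Agent.H23.D4Spec

open Cfsg.Lie Cfsg.Agent.H46 Cfsg.Agent.H88.AltD4Twist
open scoped Matrix MatrixGroups

variable {K : Type*} [Field K] [CharP K 2]

theorem exists_B : ∃ g : ↥(twistedD4 K 2), rho 2 g = two 1 2 6 5 1 := by
  obtain ⟨h14, -⟩ := nz_two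
  have hw : [(14, (1 : K))] ∈ d4Words K 2 := Or.inl ⟨1, one_pow 2, d4p2, by simp, rfl⟩
  refine ⟨⟨goodD4.xg 14 1, Subgroup.subset_closure ⟨_, hw, (word_one goodD4 ..).2 rfl⟩⟩, ?_⟩
  rw [rho, MonoidHom.comp_apply, ← root_eq (.inl rfl) (.inr rfl) h14, ← nat8_X (by norm_num : (14:ℕ) < 24)]
  rfl

theorem exists_P (t : K) : ∃ g : ↥(twistedD4 K 2), rho 2 g = genP t (t ^ 2) (t ^ 4) := by
  obtain ⟨-, -, h18, h13, h12, -⟩ := nz_two
  have hw : [(18, t), (13, t ^ 2), (12, t ^ (2 ^ 2))] ∈ d4Words K 2 :=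
    Or.inr ⟨t, (d4p1, d4p3, d4p4), by simp, rfl⟩
  refine ⟨⟨_, Subgroup.subset_closure ⟨_, hw, (word_three goodD4 ..).2 rfl⟩⟩, ?_⟩
  rw [rho, MonoidHom.comp_apply]
  refine Eq.trans (b := nat8 ((⟨goodD4.xg 18 t, goodD4.xg_mem_group _ _⟩ : ↥(chevD4.group K)) *
    ⟨goodD4.xg 13 (t ^ 2), goodD4.xg_mem_group _ _⟩ * ⟨goodD4.xg 12 (t ^ (2 ^ 2)), goodD4.xg_mem_group _ _⟩)) rfl ?_
  rw [map_mul, map_mul, nat8_X (by norm_num), nat8_X (by norm_num), nat8_X (by norm_num),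
    root_eq (.inl rfl) (.inr rfl) h18, root_eq (.inl rfl) (.inr rfl) h13, root_eq (.inr rfl) (.inl rfl) h12]
  norm_num [genP]

theorem exists_N (t : K) : ∃ g : ↥(twistedD4 K 2), rho 2 g = genN t (t ^ 2) (t ^ 4) := by
  obtain ⟨-, -, -, -, -, h5, h10, h11⟩ := nz_two
  have hw : [(5, t), (10, t ^ 2), (11, t ^ (2 ^ 2))] ∈ d4Words K 2 :=
    Or.inr ⟨t, (d4m1, d4m3, d4m4), by simp, rfl⟩
  refine ⟨⟨_, Subgroup.subset_closure ⟨_, hw, (word_three goodD4 ..).2 rfl⟩⟩, ?_⟩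
  rw [rho, MonoidHom.comp_apply]
  refine Eq.trans (b := nat8 ((⟨goodD4.xg 5 t, goodD4.xg_mem_group _ _⟩ : ↥(chevD4.group K)) *
    ⟨goodD4.xg 10 (t ^ 2), goodD4.xg_mem_group _ _⟩ * ⟨goodD4.xg 11 (t ^ (2 ^ 2)), goodD4.xg_mem_group _ _⟩)) rfl ?_
  rw [map_mul, map_mul, nat8_X (by norm_num), nat8_X (by norm_num), nat8_X (by norm_num),
    root_eq (.inl rfl) (.inr rfl) h5, root_eq (.inl rfl) (.inr rfl) h10, root_eq (.inl rfl) (.inr rfl) h11]
  norm_num [genN]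

variable [Fintype K] (hK : Fintype.card K = 8)

include hK in
theorem rho_injective : Function.Injective (rho (K := K) 2) := by
  have hS := (S1071.result (K := K) (q := 2) Nat.prime_two.isPrimePow (by rw [hK]; norm_num)).1
  obtain ⟨g, hg⟩ := exists_B (K := K)
  rcases hS.eq_bot_or_eq_top_of_normal _ (rho (K := K) 2).normal_ker with h | h
  · exact (MonoidHom.ker_eq_bot_iff _).1 h
  · have h1 : rho 2 g = 1 := (rho (K := K) 2).mem_ker.1 (h ▸ Subgroup.mem_top g)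
    rw [hg] at h1
    exact absurd (congrFun (congrFun h1 1) 2) (by simp [two, Matrix.single])

include hK in
theorem card_eq : Nat.card ↥(twistedD4 K 2) = 2 ^ 12 * (3 ^ 4 * 7 ^ 2 * 13) := by
  rw [S1067.result (K := K) (q := 2) Nat.prime_two.isPrimePow (by rw [hK]; norm_num)]
  norm_num

end Cfsg.Agent.H23.D4Spec
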