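import Cfsg.Agent.H23.D4Spec.Hom

/-!
# The invariant trilinear form of the natural representation
-/

set_option autoImplicit false
set_option maxRecDepth 100000

namespace Cfsg.Agent.H23.D4Spec

open Cfsg.Lie Cfsg.Agent.H46 Cfsg.Agent.H88.AltD4Twist
open scoped Matrix MatrixGroups

variable {K : Type*} [Field K] [CharP K 2]

/-- The product. -/
def tm (x y : Fin 8 → K) : Fin 8 → K :=
  ![x 0 * y 7 + x 1 * y 2 + x 2 * y 1 + x 3 * y 0,
    x 0 * y 6 + x 1 * y 3 + x 6 * y 0 + x 7 * y 1,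
    x 0 * y 5 + x 2 * y 3 + x 5 * y 0 + x 7 * y 2,
    x 1 * y 5 + x 2 * y 6 + x 4 * y 0 + x 7 * y 7,
    x 4 * y 3 + x 5 * y 6 + x 6 * y 5 + x 7 * y 4,
    x 2 * y 4 + x 3 * y 5 + x 4 * y 2 + x 5 * y 7,
    x 1 * y 4 + x 3 * y 6 + x 4 * y 1 + x 6 * y 7,
    x 0 * y 4 + x 3 * y 3 + x 5 * y 1 + x 6 * y 2]

/-- The opposite product. -/
def tr (z y : Fin 8 → K) : Fin 8 → K :=
  ![z 7 * y 0 + z 0 * y 3 + z 1 * y 2 + z 2 * y 1,
    z 6 * y 0 + z 0 * y 6 + z 1 * y 7 + z 3 * y 1,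
    z 5 * y 0 + z 0 * y 5 + z 2 * y 7 + z 3 * y 2,
    z 5 * y 1 + z 6 * y 2 + z 7 * y 7 + z 0 * y 4,
    z 4 * y 7 + z 5 * y 6 + z 6 * y 5 + z 3 * y 4,
    z 4 * y 2 + z 5 * y 3 + z 7 * y 5 + z 2 * y 4,
    z 4 * y 1 + z 6 * y 3 + z 7 * y 6 + z 1 * y 4,
    z 4 * y 0 + z 1 * y 5 + z 2 * y 6 + z 3 * y 3]

/-- The quadratic form. -/
def q8 (x : Fin 8 → K) : K := x 0 * x 4 + x 1 * x 5 + x 2 * x 6 + x 3 * x 7

theorem tr_tm (x y : Fin 8 → K) : tr (tm x y) y = q8 y • x := by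
  have h2 : (2 : K) = 0 := CharTwo.two_eq_zero
  funext i
  fin_cases i <;> simp [tr, tm, q8] <;> ring_nf <;> simp [h2]

theorem tm_left_injective {y : Fin 8 → K} (hy : q8 y ≠ 0) : Function.Injective fun x => tm x y := fun a b h => by
  have := congrArg (fun z => tr z y) h
  simp only [tr_tm] at this
  exact smul_right_injective _ hy this

/-- The tm, as a bilinear map. -/
def tmL : (Fin 8 → K) →ₗ[K] (Fin 8 → K) →ₗ[K] (Fin 8 → K) :=
  LinearMap.mk₂ K tm (fun a b c => by funext i; fin_cases i <;> simp [tm] <;> ring)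
    (fun a b c => by funext i; fin_cases i <;> simp [tm] <;> ring)
    (fun a b c => by funext i; fin_cases i <;> simp [tm] <;> ring)
    (fun a b c => by funext i; fin_cases i <;> simp [tm] <;> ring)

theorem tmL_apply (x y : Fin 8 → K) : tmL x y = tm x y := rfl

/-- The squaring of entries. -/
noncomputable def frob : M8 K →+* M8 K := (frobenius K 2).mapMatrix

/-- The trilinear relation. -/
def Tri (M : M8 K) : Prop := ∀ x y, tm (M *ᵥ x) (frob M *ᵥ y) = frob (frob M) *ᵥ tm x y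

theorem Tri.one : Tri (1 : M8 K) := fun x y => by simp

theorem Tri.mul {A B : M8 K} (hA : Tri A) (hB : Tri B) : Tri (A * B) := fun x y => by
  rw [map_mul, map_mul, ← Matrix.mulVec_mulVec, ← Matrix.mulVec_mulVec, hA, hB, Matrix.mulVec_mulVec]

theorem Tri.inv {A B : M8 K} (hA : Tri A) (h : A * B = 1) : Tri B := fun x y => by
  have e := hA (B *ᵥ x) (frob B *ᵥ y)
  rw [Matrix.mulVec_mulVec, Matrix.mulVec_mulVec, ← map_mul, h, map_one, Matrix.one_mulVec,
    Matrix.one_mulVec] at e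
  rw [e, Matrix.mulVec_mulVec, ← map_mul, ← map_mul, mul_eq_one_comm.1 h, map_one, map_one, Matrix.one_mulVec]

/-- A pair of matrix units. -/
def two (a b c d : Fin 8) (t : K) : M8 K := 1 + Matrix.single a b t + Matrix.single c d t

theorem nz_two : NZ 14 = Matrix.single 1 2 1 + Matrix.single 6 5 (-1) ∧
    NZ 9 = Matrix.single 2 1 1 + Matrix.single 5 6 (-1) ∧
    NZ 18 = Matrix.single 0 1 1 + Matrix.single 5 4 (-1) ∧
    NZ 13 = Matrix.single 2 3 1 + Matrix.single 7 6 (-1) ∧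
    NZ 12 = Matrix.single 2 7 (-1) + Matrix.single 3 6 1 ∧
    NZ 5 = Matrix.single 1 0 1 + Matrix.single 4 5 (-1) ∧
    NZ 10 = Matrix.single 3 2 1 + Matrix.single 6 7 (-1) ∧
    NZ 11 = Matrix.single 6 3 1 + Matrix.single 7 2 (-1) := by
  decide +kernel

theorem root_eq {r : ℕ} {a b c d : Fin 8} {u v : ℤ} (hu : u = 1 ∨ u = -1) (hv : v = 1 ∨ v = -1)
    (h : NZ r = Matrix.single a b u + Matrix.single c d v) (t : K) : 1 + t • N K r = two a b c d t := by
  have h1 : ∀ w : ℤ, w = 1 ∨ w = -1 → (w : K) = 1 := by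
    rintro w (rfl | rfl) <;> simp [CharTwo.neg_eq]
  rw [two, N, h, Matrix.map_add _ (fun _ _ => Int.cast_add _ _), N_single rfl, N_single rfl, h1 u hu, h1 v hv,
    smul_add, Matrix.smul_single, Matrix.smul_single, smul_eq_mul, mul_one, add_assoc]

theorem frob_two (a b c d : Fin 8) (t : K) : frob (two a b c d t) = two a b c d (t ^ 2) := by
  rw [two, two, map_add, map_add, map_one]
  simp [frob, RingHom.mapMatrix_apply, Matrix.map_single, frobenius_def]

omit [CharP K 2] in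
theorem two_mulVec (a b c d : Fin 8) (t : K) (x : Fin 8 → K) (i : Fin 8) :
    (two a b c d t *ᵥ x) i = x i + (if i = a then t * x b else 0) + (if i = c then t * x d else 0) := by
  simp [two, Matrix.add_mulVec, Matrix.single_mulVec, Function.update_apply]

/-- The generators. -/
def genP (t u v : K) : M8 K := two 0 1 5 4 t * two 2 3 7 6 u * two 2 7 3 6 v

/-- The opposite generators. -/
def genN (t u v : K) : M8 K := two 1 0 4 5 t * two 3 2 6 7 u * two 6 3 7 2 v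

theorem frob_genP (t u v : K) : frob (genP t u v) = genP (t ^ 2) (u ^ 2) (v ^ 2) := by
  simp only [genP, map_mul, frob_two]

theorem frob_genN (t u v : K) : frob (genN t u v) = genN (t ^ 2) (u ^ 2) (v ^ 2) := by
  simp only [genN, map_mul, frob_two]

theorem genP_mulVec (t u v : K) (x : Fin 8 → K) : genP t u v *ᵥ x =
    ![x 0 + t * x 1, x 1, x 2 + v * x 7 + u * x 3 + u * v * x 6, x 3 + v * x 6, x 4, x 5 + t * x 4, x 6,
      x 7 + u * x 6] := by
  funext i
  simp only [genP, ← Matrix.mulVec_mulVec, two_mulVec]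
  fin_cases i <;> simp <;> ring

theorem genN_mulVec (t u v : K) (x : Fin 8 → K) : genN t u v *ᵥ x =
    ![x 0, x 1 + t * x 0, x 2, x 3 + u * x 2, x 4 + t * x 5, x 5, x 6 + v * x 3 + u * x 7 + u * v * x 2,
      x 7 + v * x 2] := by
  funext i
  simp only [genN, ← Matrix.mulVec_mulVec, two_mulVec]
  fin_cases i <;> simp <;> ring

theorem b_mulVec (t : K) (x : Fin 8 → K) :
    two 1 2 6 5 t *ᵥ x = ![x 0, x 1 + t * x 2, x 2, x 3, x 4, x 5, x 6 + t * x 5, x 7] := by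
  funext i
  fin_cases i <;> simp [two_mulVec]

theorem b'_mulVec (t : K) (x : Fin 8 → K) :
    two 2 1 5 6 t *ᵥ x = ![x 0, x 1, x 2 + t * x 1, x 3, x 4, x 5 + t * x 6, x 6, x 7] := by
  funext i
  fin_cases i <;> simp [two_mulVec]

theorem idP (t u v : K) (x y : Fin 8 → K) :
    tm (genP t u v *ᵥ x) (genP u v t *ᵥ y) = genP v t u *ᵥ tm x y := by
  have h2 : (2 : K) = 0 := CharTwo.two_eq_zero
  rw [genP_mulVec, genP_mulVec, genP_mulVec]
  funext i
  fin_cases i <;> simp [tm] <;> ring_nf <;> simp [h2]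

theorem idN (t u v : K) (x y : Fin 8 → K) :
    tm (genN t u v *ᵥ x) (genN u v t *ᵥ y) = genN v t u *ᵥ tm x y := by
  have h2 : (2 : K) = 0 := CharTwo.two_eq_zero
  rw [genN_mulVec, genN_mulVec, genN_mulVec]
  funext i
  fin_cases i <;> simp [tm] <;> ring_nf <;> simp [h2]

theorem idB (t : K) (x y : Fin 8 → K) :
    tm (two 1 2 6 5 t *ᵥ x) (two 1 2 6 5 t *ᵥ y) = two 1 2 6 5 t *ᵥ tm x y := by
  have h2 : (2 : K) = 0 := CharTwo.two_eq_zero
  rw [b_mulVec, b_mulVec, b_mulVec]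
  funext i
  fin_cases i <;> simp [tm] <;> ring_nf <;> simp [h2]

theorem idB' (t : K) (x y : Fin 8 → K) :
    tm (two 2 1 5 6 t *ᵥ x) (two 2 1 5 6 t *ᵥ y) = two 2 1 5 6 t *ᵥ tm x y := by
  have h2 : (2 : K) = 0 := CharTwo.two_eq_zero
  rw [b'_mulVec, b'_mulVec, b'_mulVec]
  funext i
  fin_cases i <;> simp [tm] <;> ring_nf <;> simp [h2]

variable [Fintype K] (hK : Fintype.card K = 8)

include hK in
theorem rho_gen {g : ↥(twistedD4 K 2)} {w : List (ℕ × K)} (hw : w ∈ d4Words K 2)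
    (hg : ((g : GL chevD4.Idx K) : Matrix chevD4.Idx chevD4.Idx K) = chevD4.wordMat K w) :
    (∃ t : K, t ^ 2 = t ∧ (rho 2 g = two 1 2 6 5 t ∨ rho 2 g = two 2 1 5 6 t)) ∨
      ∃ t : K, rho 2 g = genP t (t ^ 2) (t ^ 4) ∨ rho 2 g = genN t (t ^ 2) (t ^ 4) := by
  obtain ⟨h14, h9, h18, h13, h12, h5, h10, h11⟩ := nz_two
  have one : ∀ r : ℕ, r < 24 → ∀ t : K, (g : GL chevD4.Idx K) = goodD4.xg r t →
      rho 2 g = 1 + t • N K r := fun r hr t e => by
    rw [← nat8_X hr t, rho, MonoidHom.comp_apply]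
    exact congrArg nat8 (Subtype.ext e)
  have three : ∀ r s u : ℕ, r < 24 → s < 24 → u < 24 → ∀ a b c : K,
      (g : GL chevD4.Idx K) = goodD4.xg r a * goodD4.xg s b * goodD4.xg u c →
      rho 2 g = (1 + a • N K r) * (1 + b • N K s) * (1 + c • N K u) := fun r s u hr hs hu a b c e => by
    rw [← nat8_X hr a, ← nat8_X hs b, ← nat8_X hu c, ← map_mul, ← map_mul, rho, MonoidHom.comp_apply]
    exact congrArg nat8 (Subtype.ext e)
  rcases hw with ⟨t, ht, r, hr, rfl⟩ | ⟨t, rs, hrs, rfl⟩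
  · have e := (word_one goodD4 ..).1 hg
    simp only [List.mem_cons, List.not_mem_nil, or_false] at hr
    rcases hr with rfl | rfl
    · exact Or.inl ⟨t, ht, Or.inl ((one 14 (by norm_num) t e).trans (root_eq (.inl rfl) (.inr rfl) h14 t))⟩
    · exact Or.inl ⟨t, ht, Or.inr ((one 9 (by norm_num) t e).trans (root_eq (.inl rfl) (.inr rfl) h9 t))⟩
  · have e := (word_three goodD4 ..).1 hg
    simp only [List.mem_cons, List.not_mem_nil, or_false] at hrs
    rcases hrs with rfl | rfl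
    · refine Or.inr ⟨t, Or.inl ((three 18 13 12 (by norm_num) (by norm_num) (by norm_num) _ _ _ e).trans ?_)⟩
      rw [root_eq (.inl rfl) (.inr rfl) h18, root_eq (.inl rfl) (.inr rfl) h13, root_eq (.inr rfl) (.inl rfl) h12]
      norm_num [genP]
    · refine Or.inr ⟨t, Or.inr ((three 5 10 11 (by norm_num) (by norm_num) (by norm_num) _ _ _ e).trans ?_)⟩
      rw [root_eq (.inl rfl) (.inr rfl) h5, root_eq (.inl rfl) (.inr rfl) h10, root_eq (.inl rfl) (.inr rfl) h11]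
      norm_num [genN]

include hK in
theorem rho_tri (g : ↥(twistedD4 K 2)) : Tri (rho 2 g) := by
  have h8 : ∀ t : K, t ^ 8 = t := fun t => by rw [← hK, FiniteField.pow_card]
  obtain ⟨x, hx⟩ := g
  suffices H : ∃ h : x ∈ chevD4.group K, Tri (nat8 ⟨x, h⟩) by
    obtain ⟨h, hh⟩ := H
    have e : rho 2 (⟨x, hx⟩ : ↥(twistedD4 K 2)) = nat8 ⟨x, h⟩ := rfl
    rw [e]
    exact hh
  induction hx using Subgroup.closure_induction with
  | mem y hy =>
    obtain ⟨w, hw, hg⟩ := hy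
    have hy' : y ∈ twistedD4 K 2 := Subgroup.subset_closure ⟨w, hw, hg⟩
    refine ⟨twistedD4_le 2 hy', ?_⟩
    have e0 : rho 2 (⟨y, hy'⟩ : ↥(twistedD4 K 2)) = nat8 ⟨y, twistedD4_le 2 hy'⟩ := rfl
    rw [← e0]
    rcases rho_gen hK (g := ⟨y, hy'⟩) hw hg with ⟨t, ht, e | e⟩ | ⟨t, e | e⟩
    all_goals intro a b
    · simp only [e, frob_two, ht]; exact idB t a b
    · simp only [e, frob_two, ht]; exact idB' t a b
    · simp only [e, frob_genP, ← pow_mul, show 2 * 2 = 4 from rfl, show 4 * 2 = 8 from rfl, h8]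
      exact idP t _ _ a b
    · simp only [e, frob_genN, ← pow_mul, show 2 * 2 = 4 from rfl, show 4 * 2 = 8 from rfl, h8]
      exact idN t _ _ a b
  | one =>
    refine ⟨one_mem _, ?_⟩
    rw [(Subgroup.mk_eq_one _).2 rfl, map_one]
    exact Tri.one
  | mul a b ha hb iha ihb =>
    obtain ⟨ha', iha⟩ := iha
    obtain ⟨hb', ihb⟩ := ihb
    refine ⟨mul_mem ha' hb', ?_⟩
    rw [← MulMemClass.mk_mul_mk _ a b ha' hb', map_mul]
    exact Tri.mul iha ihb
  | inv a ha iha =>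
    obtain ⟨ha', iha⟩ := iha
    refine ⟨inv_mem ha', ?_⟩
    have e : nat8 (⟨a, ha'⟩ : ↥(chevD4.group K)) * nat8 (⟨a, ha'⟩ : ↥(chevD4.group K))⁻¹ = 1 := by
      rw [← map_mul, mul_inv_cancel, map_one]
    exact Tri.inv iha e

end Cfsg.Agent.H23.D4Spec
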