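import Cfsg.Agent.H88.AltSec.D8Rep
import Cfsg.Agent.H88.AltSec.D4Twist
import Cfsg.Agent.H5.FrameRot
import Cfsg.Agent.H5.OmegaForms

/-!
# The natural representation of the twisted group of type D₄ in characteristic two
-/

set_option autoImplicit false
set_option maxRecDepth 100000

namespace Cfsg.Agent.H23.D4Spec

open Cfsg.Lie Cfsg.Agent.H46 Cfsg.Agent.H47 Cfsg.Agent.H88.AltD4Twist Cfsg.Agent.H70.Steinberg
open scoped Matrix MatrixGroups

abbrev M8 (K : Type*) := Matrix (Fin 8) (Fin 8) K

variable {K : Type*} [Field K] [CharP K 2]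

theorem lift_unique {g : ↥(chevD4.group K)} {M M' : M8 K} (h : Lift g M) (h' : Lift g M') : M' = M := by
  rcases Lift.unique h h' with e | e
  · exact e
  · rw [e]; ext i j; exact CharTwo.neg_eq _

/-- The lift. -/
noncomputable def nat8 : ↥(chevD4.group K) →* M8 K where
  toFun g := (exists_lift g).choose
  map_one' := lift_unique ⟨1, map_one _, by simp⟩ (exists_lift 1).choose_spec
  map_mul' g g' := lift_unique ((exists_lift g).choose_spec.mul (exists_lift g').choose_spec)
    (exists_lift (g * g')).choose_spec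

theorem nat8_eq {g : ↥(chevD4.group K)} {M : M8 K} (h : Lift g M) : nat8 g = M :=
  lift_unique h (exists_lift g).choose_spec

theorem nat8_lift (g : ↥(chevD4.group K)) : Lift g (nat8 g) := (exists_lift g).choose_spec

theorem nat8_X {r : ℕ} (hr : r < 24) (t : K) :
    nat8 ⟨goodD4.xg r t, goodD4.xg_mem_group _ _⟩ = 1 + t • N K r :=
  nat8_eq ⟨(pres K).X r t, Subtype.ext ((pres K).π_X r hr t), rep_X hr t⟩

theorem nat8_isom (g : ↥(chevD4.group K)) : (nat8 g)ᵀ * J K * nat8 g = J K := (nat8_lift g).isom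

/-- The representation on the twisted group. -/
noncomputable def rho (q : ℕ) : ↥(twistedD4 K q) →* M8 K :=
  nat8.comp (Subgroup.inclusion (twistedD4_le q))

theorem rho_isom (q : ℕ) (g : ↥(twistedD4 K q)) : (rho q g)ᵀ * J K * rho q g = J K := nat8_isom _

/-- The residual dimension is even. -/
theorem rho_even [Finite K] (q : ℕ) (g : ↥(twistedD4 K q)) :
    Even (Module.finrank K (LinearMap.range (Matrix.toLin' (rho q g - 1)))) := by
  have hD : chevD4 ∈ [chevG2, chevB2, chevD4, chevF4, chevE6, chevE7, chevE8] := by simp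
  have hperf := perfect_of_mem (pres K) hD (fun h => absurd
    (List.mem_map_of_mem (f := fun D : ChevalleyDatum => D.nroots) h) (by decide +kernel))
  obtain ⟨y, -, hy⟩ := nat8_lift (Subgroup.inclusion (twistedD4_le q) g)
  set f := PresentedGroup.toGroup (lift_rels K)
  set o : H5.orth (H5.qPlus 4 K) := f y
  have hmem : o ∈ commutator (H5.orth (H5.qPlus 4 K)) := by
    have h1 : (commutator (chevD4.SteinbergCover K)).map f ≤ commutator _ := by
      rw [commutator_def, commutator_def, Subgroup.map_commutator]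
      exact Subgroup.commutator_mono le_top le_top
    exact h1 ⟨y, hperf.ge (Subgroup.mem_top y), rfl⟩
  have hn : 5 ≤ Module.finrank K (Fin 4 ⊕ Fin 4 → K) := by simp
  have hd := H5.dick_eq_one_of_mem_commutator (H5.qPlus_nondegenerate 4) hn hmem
  rw [H5.dick, neg_one_pow_eq_one_iff_even (by decide)] at hd
  let e : (Fin 4 ⊕ Fin 4 → K) ≃ₗ[K] (Fin 8 → K) := LinearEquiv.funCongrLeft K K PlusEight.code.symm
  have hM : Matrix.toLin' (rho q g - 1) =
      e.toLinearMap.comp ((H5.dLin o).comp e.symm.toLinearMap) := by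
    have hr : rho q g = Matrix.reindexAlgEquiv K K PlusEight.code
        (LinearMap.toMatrixAlgEquiv' ((o : (Fin 4 ⊕ Fin 4 → K) ≃ₗ[K] _).toLinearMap)) := hy.symm
    refine LinearMap.ext fun x => ?_
    have hx : ∀ z, LinearMap.toMatrixAlgEquiv' ((o : (Fin 4 ⊕ Fin 4 → K) ≃ₗ[K] _).toLinearMap) *ᵥ z =
        (o : (Fin 4 ⊕ Fin 4 → K) ≃ₗ[K] _) z := fun z => by
      rw [← Matrix.toLinAlgEquiv'_apply, Matrix.toLinAlgEquiv'_toMatrixAlgEquiv']; rfl
    rw [hr, Matrix.toLin'_apply, Matrix.sub_mulVec, Matrix.one_mulVec, Matrix.reindexAlgEquiv_apply,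
      Matrix.reindex_apply, Matrix.submatrix_mulVec_equiv, Equiv.symm_symm, hx]
    funext i
    simp [e, LinearEquiv.funCongrLeft, H5.dLin_apply, LinearMap.funLeft, Function.comp_def]
  rw [hM, LinearMap.range_comp, LinearMap.range_comp_of_range_eq_top _ (LinearEquiv.range _),
    LinearEquiv.finrank_map_eq]
  exact hd

end Cfsg.Agent.H23.D4Spec
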